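import Cfsg.Agent.H454.Reg.Tools

/-!
# S3691: groups with a classical socle act on the subspaces, abstract form (helper449)

`E0 ≤ GL(V)`, `T` normal in `G`, `π : E0 → T` surjective with scalar kernel, every `g ∈ G` is induced by a semilinear bijection
`M` of `V` normalising `E0` (`Induces`), and a semilinear bijection commuting with `E0` up to scalars is a scalar:
`Real T E0`.

* `Semi F V` : the group of semilinear bijections, as a subgroup of `Equiv.Perm V`;  `img M S` the image of a subspace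
* `Real.act` : the action of `G` on the subspaces; `act_mul`, `act_one`, `act_of`, `act_T`, `act_mono`, `finrank_act`
* `Real.Inv0` : invariant under `X ∩ T`;  `Real.exists_fixed`;  `Real.exists_act` (transitivity in a factorization)
* `comm_of_perfect` : the last condition of `Real` if `E0` is perfect and only scalars commute with `E0`
-/

set_option autoImplicit false

namespace Cfsg.Agent.H449.Reg

open Module Cfsg.Agent.H454.Reg

universe u

section semi

variable (F V : Type*) [Field F] [AddCommGroup V] [Module F V]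

/-- the group of semilinear bijections -/
def Semi : Subgroup (Equiv.Perm V) where
  carrier := {M | ∃ σ : F ≃+* F, (∀ u v, M (u + v) = M u + M v) ∧ ∀ (a : F) (v : V), M (a • v) = σ a • M v}
  mul_mem' := by
    rintro M N ⟨σ, h1, h2⟩ ⟨τ, h3, h4⟩
    refine ⟨τ.trans σ, fun u v => ?_, fun a v => ?_⟩
    · change M (N (u + v)) = M (N u) + M (N v)
      rw [h3, h1]
    · change M (N (a • v)) = σ (τ a) • M (N v)
      rw [h4, h2]
  one_mem' := ⟨RingEquiv.refl F, fun _ _ => rfl, fun _ _ => rfl⟩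
  inv_mem' := by
    rintro M ⟨σ, h1, h2⟩
    have e : ∀ v, M (M⁻¹ v) = v := fun v => M.apply_symm_apply v
    refine ⟨σ.symm, fun u v => ?_, fun a v => ?_⟩
    · apply M.injective
      rw [e, h1, e, e]
    · apply M.injective
      rw [e, h2, e, RingEquiv.apply_symm_apply]

variable {F V}

/-- the image of a subspace under a semilinear bijection -/
def simg (M : Semi F V) (S : Submodule F V) : Submodule F V where
  carrier := M.1 '' S
  add_mem' := by
    obtain ⟨σ, h1, h2⟩ := M.2
    rintro _ _ ⟨a, ha, rfl⟩ ⟨b, hb, rfl⟩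
    exact ⟨a + b, S.add_mem ha hb, h1 a b⟩
  zero_mem' := by
    obtain ⟨σ, h1, h2⟩ := M.2
    refine ⟨0, S.zero_mem, ?_⟩
    have h3 := h2 0 0
    rw [zero_smul] at h3
    rw [h3, map_zero σ, zero_smul]
  smul_mem' := by
    obtain ⟨σ, h1, h2⟩ := M.2
    rintro a _ ⟨b, hb, rfl⟩
    exact ⟨σ.symm a • b, S.smul_mem _ hb, by rw [h2, RingEquiv.apply_symm_apply]⟩

theorem mem_simg {M : Semi F V} {S : Submodule F V} {w : V} : w ∈ simg M S ↔ ∃ v ∈ S, M.1 v = w := Iff.rfl

theorem simg_one (S : Submodule F V) : simg (1 : Semi F V) S = S := by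
  ext w
  rw [mem_simg]
  constructor
  · rintro ⟨v, hv, rfl⟩; exact hv
  · intro h; exact ⟨w, h, rfl⟩

theorem simg_mul (M N : Semi F V) (S : Submodule F V) : simg (M * N) S = simg M (simg N S) := by
  ext w
  rw [mem_simg, mem_simg]
  constructor
  · rintro ⟨v, hv, rfl⟩; exact ⟨N.1 v, ⟨v, hv, rfl⟩, rfl⟩
  · rintro ⟨_, ⟨v, hv, rfl⟩, rfl⟩; exact ⟨v, hv, rfl⟩

theorem simg_mono (M : Semi F V) {S W : Submodule F V} (h : S ≤ W) : simg M S ≤ simg M W := by
  rintro _ ⟨v, hv, rfl⟩
  exact ⟨v, h hv, rfl⟩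

theorem card_simg (M : Semi F V) (S : Submodule F V) : Nat.card (simg M S) = Nat.card S := by
  refine (Nat.card_congr (Equiv.ofBijective (fun s : S => (⟨M.1 s, s, s.2, rfl⟩ : simg M S)) ⟨?_, ?_⟩)).symm
  · intro a b hab
    have h1 : M.1 a = M.1 b := congrArg Subtype.val hab
    exact Subtype.ext (M.1.injective h1)
  · rintro ⟨_, v, hv, rfl⟩
    exact ⟨⟨v, hv⟩, rfl⟩

theorem finrank_simg [Finite F] [FiniteDimensional F V] (M : Semi F V) (S : Submodule F V) :
    finrank F (simg M S) = finrank F S := by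
  have h1 := card_simg M S
  have h2 := Module.natCard_eq_pow_finrank (K := F) (V := S)
  have h3 := Module.natCard_eq_pow_finrank (K := F) (V := simg M S)
  rw [h2, h3] at h1
  exact Nat.pow_right_injective Finite.one_lt_card h1

theorem simg_of_scalar {M : Semi F V} (h : ∃ a : F, a ≠ 0 ∧ ∀ v, M.1 v = a • v) (S : Submodule F V) : simg M S = S := by
  obtain ⟨a, ha, h⟩ := h
  ext w
  rw [mem_simg]
  constructor
  · rintro ⟨v, hv, rfl⟩
    rw [h]
    exact S.smul_mem a hv
  · intro hw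
    exact ⟨a⁻¹ • w, S.smul_mem _ hw, by rw [h, smul_smul, mul_inv_cancel₀ ha, one_smul]⟩

/-- a linear bijection as a semilinear one -/
def slg (g : V ≃ₗ[F] V) : Semi F V := ⟨g.toEquiv, RingEquiv.refl F, map_add g, fun a v => map_smul g a v⟩

theorem simg_slg (g : V ≃ₗ[F] V) (S : Submodule F V) : simg (slg g) S = S.map (g : V →ₗ[F] V) := by
  ext w
  rw [mem_simg, Submodule.mem_map]
  rfl

/-- a semilinear bijection commuting up to scalars with a perfect group commutes with it -/
theorem commute_of_perfect {E0 : Subgroup (V ≃ₗ[F] V)} (hp : commutator ↥E0 = ⊤) {M : Semi F V}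
    (h : ∀ x : E0, ∃ c : F, ∀ v, M.1 (x.1 v) = c • x.1 (M.1 v)) (x : E0) (v : V) : M.1 (x.1 v) = x.1 (M.1 v) := by
  classical
  by_cases hV : ∀ w : V, w = 0
  · rw [hV (M.1 _), hV (x.1 _)]
  push Not at hV
  obtain ⟨w₀, hw₀⟩ := hV
  obtain ⟨u₀, hu₀⟩ := M.1.surjective w₀
  have hc0 : ∀ (x : E0) (c : F), (∀ v, M.1 (x.1 v) = c • x.1 (M.1 v)) → c ≠ 0 := by
    rintro x c hc rfl
    have h1 := hc (x.1.symm u₀)
    rw [LinearEquiv.apply_symm_apply, hu₀, zero_smul] at h1
    exact hw₀ h1
  have huniq : ∀ (x : E0) (c d : F), (∀ v, M.1 (x.1 v) = c • x.1 (M.1 v)) → (∀ v, M.1 (x.1 v) = d • x.1 (M.1 v)) → c = d := by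
    intro x c d hc hd
    have h1 := hc u₀
    rw [hd u₀, hu₀] at h1
    have h2 : (d - c) • x.1 w₀ = 0 := by rw [sub_smul, h1, sub_self]
    rcases smul_eq_zero.1 h2 with h3 | h3
    · exact (sub_eq_zero.1 h3).symm
    · exact absurd ((LinearEquiv.map_eq_zero_iff x.1).1 h3) hw₀
  choose c hc using h
  let χ : E0 →* Fˣ :=
    { toFun := fun x => Units.mk0 (c x) (hc0 x _ (hc x))
      map_one' := by
        apply Units.ext
        refine huniq 1 _ _ (hc 1) fun v => ?_
        rw [Units.val_one, one_smul]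
        rfl
      map_mul' := fun x y => by
        apply Units.ext
        refine huniq (x * y) _ _ (hc (x * y)) fun v => ?_
        rw [Units.val_mul, Units.val_mk0, Units.val_mk0]
        change M.1 (x.1 (y.1 v)) = (c x * c y) • x.1 (y.1 (M.1 v))
        rw [hc x, hc y, map_smul, smul_smul] }
  have h1 : commutator ↥E0 ≤ χ.ker := Abelianization.commutator_subset_ker χ
  have h2 : x ∈ χ.ker := h1 (by rw [hp]; exact Subgroup.mem_top x)
  have h3 : c x = 1 := congrArg Units.val (MonoidHom.mem_ker.1 h2)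
  rw [hc x v, h3, one_smul]

end semi

variable {G : Type u} [Group G] {F V : Type*} [Field F] [AddCommGroup V] [Module F V]

/-- `M` normalises `E0` and induces the conjugation by `g` on `T` -/
def Induces {T : Subgroup G} {E0 : Subgroup (V ≃ₗ[F] V)} (π : E0 → T) (M : Semi F V) (g : G) : Prop :=
  (∀ x : E0, ∃ y : E0, ∀ v, y.1 (M.1 v) = M.1 (x.1 v)) ∧
    ∀ x y : E0, (∀ v, y.1 (M.1 v) = M.1 (x.1 v)) → g * (π x : G) * g⁻¹ = π y

/-- a linear realisation of `T`, normal in `G`, such that all of `G` acts semilinearly -/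
structure Real (T : Subgroup G) (E0 : Subgroup (V ≃ₗ[F] V)) where
  /-- the projection -/
  π : E0 →* T
  surj : Function.Surjective π
  ker : ∀ x : E0, π x = 1 → ∃ a : F, ∀ v, x.1 v = a • v
  ind : ∀ g : G, ∃ M : Semi F V, Induces π M g
  comm : ∀ M : Semi F V, (∀ x : E0, ∃ c : F, ∀ v, M.1 (x.1 v) = c • x.1 (M.1 v)) → ∃ a : F, a ≠ 0 ∧ ∀ v, M.1 v = a • v

namespace Real

variable {T : Subgroup G} {E0 : Subgroup (V ≃ₗ[F] V)} (R : Real T E0)

omit R in
theorem semi_inv_apply (M : Semi F V) (v : V) : M.1 (M⁻¹.1 v) = v := M.1.apply_symm_apply v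

omit R in
theorem semi_apply_inv (M : Semi F V) (v : V) : M⁻¹.1 (M.1 v) = v := M.1.symm_apply_apply v

/-- two semilinear bijections inducing the same conjugation act in the same way on subspaces -/
theorem simg_eq {M N : Semi F V} {g : G} (hM : Induces R.π M g) (hN : Induces R.π N g) (S : Submodule F V) :
    simg M S = simg N S := by
  have h1 : simg (N⁻¹ * M) S = S := by
    apply simg_of_scalar
    apply R.comm
    intro x
    obtain ⟨y, hy⟩ := hM.1 x
    obtain ⟨z, hz⟩ := hN.1 x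
    have h2 := hM.2 x y hy
    have h3 := hN.2 x z hz
    have h4 : R.π (z⁻¹ * y) = 1 := by
      rw [map_mul, map_inv, inv_mul_eq_one]
      apply Subtype.ext
      rw [← h2, ← h3]
    obtain ⟨a, ha⟩ := R.ker _ h4
    -- `y = a z`
    have h5 : ∀ v, y.1 v = a • z.1 v := by
      intro v
      have h6 : z.1 ((z⁻¹ * y).1 v) = y.1 v := by
        change (z.1 * (z.1⁻¹ * y.1)) v = _
        rw [mul_inv_cancel_left]
      rw [← h6, ha, map_smul]
    obtain ⟨σ, hσ1, hσ2⟩ := (N⁻¹ : Semi F V).2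
    refine ⟨σ a, fun v => ?_⟩
    change (N⁻¹ : Semi F V).1 (M.1 (x.1 v)) = σ a • x.1 ((N⁻¹ : Semi F V).1 (M.1 v))
    rw [← hy, h5, hσ2]
    congr 1
    apply N.1.injective
    rw [semi_inv_apply]
    have h7 := hz ((N⁻¹ : Semi F V).1 (M.1 v))
    rw [semi_inv_apply] at h7
    exact h7
  have h5 : simg N (simg (N⁻¹ * M) S) = simg M S := by rw [← simg_mul, mul_inv_cancel_left]
  rw [← h5, h1]

/-- the action of `G` on the subspaces -/
noncomputable def act (g : G) (S : Submodule F V) : Submodule F V := simg (R.ind g).choose S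

theorem act_of {M : Semi F V} {g : G} (hM : Induces R.π M g) (S : Submodule F V) : R.act g S = simg M S :=
  R.simg_eq (R.ind g).choose_spec hM S

omit R in
theorem induces_mul {π : E0 → T} {M N : Semi F V} {g h : G} (hM : Induces π M g) (hN : Induces π N h) :
    Induces π (M * N) (g * h) := by
  have key : ∀ x y z : E0, (∀ v, y.1 (N.1 v) = N.1 (x.1 v)) → (∀ v, z.1 (M.1 v) = M.1 (y.1 v)) →
      ∀ v, z.1 ((M * N).1 v) = (M * N).1 (x.1 v) := by
    intro x y z h1 h2 v
    change z.1 (M.1 (N.1 v)) = M.1 (N.1 (x.1 v))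
    rw [h2, h1]
  refine ⟨fun x => ?_, fun x w hw => ?_⟩
  · obtain ⟨y, hy⟩ := hN.1 x
    obtain ⟨z, hz⟩ := hM.1 y
    exact ⟨z, key x y z hy hz⟩
  · obtain ⟨y, hy⟩ := hN.1 x
    obtain ⟨z, hz⟩ := hM.1 y
    have h1 : w = z := by
      apply Subtype.ext
      apply LinearEquiv.ext
      intro v
      obtain ⟨v, rfl⟩ := (M * N).1.surjective v
      rw [hw, key x y z hy hz]
    rw [h1, ← hM.2 y z hz, ← hN.2 x y hy]
    group

theorem act_mul (a b : G) (S : Submodule F V) : R.act (a * b) S = R.act a (R.act b S) := by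
  rw [R.act_of (induces_mul (R.ind a).choose_spec (R.ind b).choose_spec), simg_mul]
  rfl

theorem act_one (S : Submodule F V) : R.act (1 : G) S = S := by
  rw [R.act_of (M := 1) ⟨fun x => ⟨x, fun v => rfl⟩, fun x y h => ?_⟩, simg_one]
  have h1 : y = x := by
    apply Subtype.ext
    apply LinearEquiv.ext
    intro v
    exact h v
  rw [h1]; group

theorem act_inv_act (g : G) (S : Submodule F V) : R.act g⁻¹ (R.act g S) = S := by
  rw [← act_mul, inv_mul_cancel, act_one]

theorem act_act_inv (g : G) (S : Submodule F V) : R.act g (R.act g⁻¹ S) = S := by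
  rw [← act_mul, mul_inv_cancel, act_one]

theorem act_mono (g : G) {S W : Submodule F V} (hSW : S ≤ W) : R.act g S ≤ R.act g W := simg_mono _ hSW

theorem finrank_act [Finite F] [FiniteDimensional F V] (g : G) (S : Submodule F V) :
    finrank F (R.act g S) = finrank F S := finrank_simg _ S

/-- elements of `T` act linearly -/
theorem act_T (x : E0) (S : Submodule F V) : R.act (R.π x : G) S = S.map (x.1 : V →ₗ[F] V) := by
  rw [R.act_of (M := slg x.1) ⟨fun y => ⟨x * y * x⁻¹, fun v => ?_⟩, fun y z h => ?_⟩, simg_slg]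
  · change (x.1 * y.1 * x.1⁻¹) (x.1 v) = x.1 (y.1 v)
    have h1 : (x.1 * y.1 * x.1⁻¹) (x.1 v) = (x.1 * y.1) ((x.1⁻¹ * x.1) v) := rfl
    rw [h1, inv_mul_cancel]
    rfl
  · have h1 : z = x * y * x⁻¹ := by
      apply Subtype.ext
      apply LinearEquiv.ext
      intro v
      obtain ⟨v, rfl⟩ := x.1.surjective v
      have h2 : z.1 (x.1 v) = x.1 (y.1 v) := h v
      rw [h2]
      have h3 : ((x * y * x⁻¹ : E0).1) (x.1 v) = (x.1 * y.1) ((x.1⁻¹ * x.1) v) := rfl
      rw [h3, inv_mul_cancel]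
      rfl
    rw [h1, map_mul, map_mul, map_inv]
    rfl

/-- the intersection and the sum are respected -/
theorem act_inf (g : G) (S W : Submodule F V) : R.act g (S ⊓ W) = R.act g S ⊓ R.act g W := by
  apply le_antisymm
  · exact le_inf (R.act_mono g inf_le_left) (R.act_mono g inf_le_right)
  · have h1 := R.act_mono g (le_inf (R.act_mono g⁻¹ (inf_le_left : R.act g S ⊓ R.act g W ≤ _))
      (R.act_mono g⁻¹ (inf_le_right : R.act g S ⊓ R.act g W ≤ _)))
    rwa [act_act_inv, act_inv_act, act_inv_act] at h1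

/-- `W` is invariant under `X ∩ T` -/
def Inv0 (X : Subgroup G) (W : Submodule F V) : Prop := ∀ t : T, (t : G) ∈ X → R.act (t : G) W = W

theorem inv0_iff {X : Subgroup G} {W : Submodule F V} [FiniteDimensional F V] :
    R.Inv0 X W ↔ ∀ x : E0, (R.π x : G) ∈ X → ∀ w ∈ W, x.1 w ∈ W := by
  constructor
  · intro h x hx w hw
    have h1 := h _ hx
    rw [act_T] at h1
    rw [← h1]
    exact ⟨w, hw, rfl⟩
  · intro h t ht
    obtain ⟨x, rfl⟩ := R.surj t
    rw [act_T]
    refine Submodule.eq_of_le_of_finrank_eq ?_ (LinearEquiv.finrank_map_eq x.1 W)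
    rintro _ ⟨w, hw, rfl⟩
    exact h x ht w hw

theorem Inv0.act [hT : T.Normal] {X : Subgroup G} {W : Submodule F V} (hW : R.Inv0 X W) {g : G}
    (hg : g ∈ X) : R.Inv0 X (R.act g W) := by
  intro t ht
  have h1 : (g⁻¹ * (t : G) * g) ∈ T := by
    have := hT.conj_mem (t : G) t.2 g⁻¹
    rwa [inv_inv] at this
  have h2 : R.act (g⁻¹ * (t : G) * g) W = W := hW ⟨_, h1⟩ (X.mul_mem (X.mul_mem (X.inv_mem hg) ht) hg)
  have h3 : (t : G) * g = g * (g⁻¹ * (t : G) * g) := by group
  rw [← act_mul, h3, act_mul, h2]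

/-- **a subspace fixed by `X`** from the subspaces invariant under `X ∩ T` -/
theorem exists_fixed [T.Normal] [Finite F] [FiniteDimensional F V] {X : Subgroup G} {k : ℕ}
    {D : Submodule F V} (hD : ∀ W : Submodule F V, R.Inv0 X W → finrank F W < k → W ≤ D)
    (hex : ∃ W : Submodule F V, R.Inv0 X W ∧ finrank F W < k ∧ W ≠ ⊥) :
    ∃ S : Submodule F V, S ≠ ⊥ ∧ S ≤ D ∧ ∀ x ∈ X, R.act x S = S := by
  set A : Set (Submodule F V) := {W | R.Inv0 X W ∧ finrank F W < k} with hA
  have hle : ∀ x ∈ X, sSup A ≤ R.act x (sSup A) := by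
    intro x hx
    refine sSup_le fun W hW => ?_
    have h1 : R.act x⁻¹ W ∈ A := ⟨hW.1.act R (X.inv_mem hx), by rw [finrank_act]; exact hW.2⟩
    have h2 := R.act_mono x (le_sSup h1)
    rwa [act_act_inv] at h2
  refine ⟨sSup A, ?_, sSup_le fun W hW => hD W hW.1 hW.2, fun x hx => le_antisymm ?_ (hle x hx)⟩
  · obtain ⟨W, hW, hd, hne⟩ := hex
    intro h0
    apply hne
    rw [eq_bot_iff, ← h0]
    exact le_sSup ⟨hW, hd⟩
  · have h1 := R.act_mono x (hle x⁻¹ (X.inv_mem hx))
    rwa [act_act_inv] at h1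

/-- **transitivity** : if `Y` fixes `S` then `X` is transitive on the images of `S` under `G` -/
theorem exists_act [Finite G] {X Y : Subgroup G} (hf : Fac T X Y) {S : Submodule F V} (hY : ∀ y ∈ Y, R.act y S = S)
    (g : G) : ∃ x ∈ X, R.act x S = R.act g S := by
  obtain ⟨x, hx, y, hy, hxy⟩ := hf.exists_mul g
  exact ⟨x, hx, by rw [← hxy, act_mul, hY y hy]⟩

end Real

end Cfsg.Agent.H449.Reg
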