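import Cfsg.Agent.AutOrth.Final
import Cfsg.Agent.H454.Reg.Tools

/-!
# S3691: groups with socle `PΩ(Q)` act on the subspaces (helper449)

`T` normal in `G`, `e : T ≃* E Q / Z(E Q)`, every element of `G` induces on `T` an automorphism which comes from a
semisimilitude of `Q` (`Ind e`; true except for `PΩ₈⁺` ).

* `act h : G → Submodule F V → Submodule F V` : the action on subspaces; `act_mul`, `act_one`, `act_T` (elements of `T` act
  as the isometries), `act_of` (`g` acts as any semisimilitude inducing the same automorphism), `finrank_act`, `act_mono`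
* `no_common` : in a factorization `G = X Y`, if `X` fixes a point `⟨v⟩`, `Q v ≠ 0`, then `Y` fixes no nonzero subspace whose
  perp contains a vector `w` with `Q w = Q v`
* `exists_fixed` : if the subspaces `≠ V` invariant under `X ∩ T` of dimension `< k` all lie in `D` and there is a nonzero one, there
  is a nonzero subspace of `D` fixed by `X`.
-/

set_option autoImplicit false

namespace Cfsg.Agent.H449.Reg

open Module QuadraticMap Cfsg.Agent.LieClassical.OrthCore Cfsg.Agent.LieClassical.OrthTrans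
  Cfsg.Agent.ClassicalGeometry.OrthSemi Cfsg.Agent.H454.Reg

universe u

section semi

variable {F V : Type*} [Field F] [AddCommGroup V] [Module F V] {Q : QuadraticForm F V}

/-- the image of a subspace under a semisimilitude -/
def img (M : Gam Q) (S : Submodule F V) : Submodule F V where
  carrier := M.1 '' S
  add_mem' := by
    rintro _ _ ⟨a, ha, rfl⟩ ⟨b, hb, rfl⟩
    exact ⟨a + b, S.add_mem ha hb, add_of_mem M.2 a b⟩
  zero_mem' := by
    obtain ⟨σ, c, hM⟩ := M.2
    exact ⟨0, S.zero_mem, hM.map_zero⟩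
  smul_mem' := by
    rintro a _ ⟨b, hb, rfl⟩
    obtain ⟨σ, c, hM⟩ := M.2
    exact ⟨σ.symm a • b, S.smul_mem _ hb, by rw [hM.smul, RingEquiv.apply_symm_apply]⟩

theorem mem_img {M : Gam Q} {S : Submodule F V} {w : V} : w ∈ img M S ↔ ∃ v ∈ S, M.1 v = w := Iff.rfl

theorem img_one (S : Submodule F V) : img (1 : Gam Q) S = S := by
  ext w
  rw [mem_img]
  constructor
  · rintro ⟨v, hv, rfl⟩; exact hv
  · intro h; exact ⟨w, h, rfl⟩

theorem img_mul (M N : Gam Q) (S : Submodule F V) : img (M * N) S = img M (img N S) := by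
  ext w
  rw [mem_img, mem_img]
  constructor
  · rintro ⟨v, hv, rfl⟩; exact ⟨N.1 v, ⟨v, hv, rfl⟩, rfl⟩
  · rintro ⟨_, ⟨v, hv, rfl⟩, rfl⟩; exact ⟨v, hv, rfl⟩

theorem img_mono (M : Gam Q) {S W : Submodule F V} (h : S ≤ W) : img M S ≤ img M W := by
  rintro _ ⟨v, hv, rfl⟩
  exact ⟨v, h hv, rfl⟩

theorem card_img (M : Gam Q) (S : Submodule F V) : Nat.card (img M S) = Nat.card S := by
  refine (Nat.card_congr (Equiv.ofBijective (fun s : S => (⟨M.1 s, s, s.2, rfl⟩ : img M S)) ⟨?_, ?_⟩)).symm
  · intro a b hab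
    have h1 : M.1 a = M.1 b := congrArg Subtype.val hab
    exact Subtype.ext (M.1.injective h1)
  · rintro ⟨_, v, hv, rfl⟩
    exact ⟨⟨v, hv⟩, rfl⟩

theorem finrank_img [Finite F] [FiniteDimensional F V] (M : Gam Q) (S : Submodule F V) :
    finrank F (img M S) = finrank F S := by
  have h1 := card_img M S
  have h2 := Module.natCard_eq_pow_finrank (K := F) (V := S)
  have h3 := Module.natCard_eq_pow_finrank (K := F) (V := img M S)
  rw [h2, h3] at h1
  exact Nat.pow_right_injective Finite.one_lt_card h1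

/-- two semisimilitudes with the same image in `MulAut (PΩ)` have the same action on subspaces -/
theorem img_eq_of_Psi (hG : Good Q) {M N : Gam Q} (h : Psi Q M = Psi Q N) (S : Submodule F V) : img M S = img N S := by
  have h1 : Psi Q (N⁻¹ * M) = 1 := by rw [map_mul, map_inv, h, inv_mul_cancel]
  have h2 : conjE Q (N⁻¹ * M) = 1 := eq_one_of_quotAut (commutator_E hG) _ h1
  obtain ⟨a, ha, h3⟩ := exists_scalar_of_conjE hG _ h2
  have h4 : img (N⁻¹ * M) S = S := by
    ext w
    rw [mem_img]
    constructor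
    · rintro ⟨v, hv, rfl⟩
      rw [h3]
      exact S.smul_mem a hv
    · intro hw
      exact ⟨a⁻¹ • w, S.smul_mem _ hw, by rw [h3, smul_smul, mul_inv_cancel₀ ha, one_smul]⟩
  have h5 : img N (img (N⁻¹ * M) S) = img M S := by rw [← img_mul, mul_inv_cancel_left]
  rw [← h5, h4]

/-- an element of `E Q` as a semisimilitude -/
def lg (g : ↥(E Q)) : Gam Q :=
  ⟨(g.1 : V ≃ₗ[F] V).toEquiv, RingEquiv.refl F, 1, ⟨one_ne_zero, fun u v => map_add g.1 u v, fun a v => map_smul g.1 a v,
    fun v => by
      rw [one_mul]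
      exact E_le_O g.2 v⟩⟩

theorem lg_apply (g : ↥(E Q)) (v : V) : (lg g).1 v = g.1 v := rfl

theorem Psi_lg (g : ↥(E Q)) :
    Psi Q (lg g) = MulAut.conj (QuotientGroup.mk g : ↥(E Q) ⧸ Subgroup.center ↥(E Q)) := by
  ext x
  induction x using QuotientGroup.induction_on with
  | H h =>
    rw [Psi_mk, MulAut.conj_apply]
    have h1 : conjE Q (lg g) h = g * h * g⁻¹ := by
      apply Subtype.ext
      rw [coe_conjE]
      ext1 v
      rfl
    rw [h1]
    rfl

theorem img_lg (g : ↥(E Q)) (S : Submodule F V) : img (lg g) S = S.map (g.1 : V →ₗ[F] V) := by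
  ext w
  rw [mem_img, Submodule.mem_map]
  rfl

end semi

section act

variable {G : Type u} [Group G] {T : Subgroup G} [T.Normal]
variable {F V : Type*} [Field F] [AddCommGroup V] [Module F V] {Q : QuadraticForm F V}

/-- the automorphism of `P Q` induced by an element of `G` -/
def autP (e : T ≃* (↥(E Q) ⧸ Subgroup.center ↥(E Q))) : G →* MulAut (↥(E Q) ⧸ Subgroup.center ↥(E Q)) :=
  (MulAut.congr e).toMonoidHom.comp (MulAut.conjNormal : G →* MulAut T)

theorem autP_apply (e : T ≃* (↥(E Q) ⧸ Subgroup.center ↥(E Q))) (g : G) (t : T) :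
    autP e g (e t) = e (MulAut.conjNormal g t) := by
  change e (MulAut.conjNormal g (e.symm (e t))) = _
  rw [e.symm_apply_apply]

theorem autP_T (e : T ≃* (↥(E Q) ⧸ Subgroup.center ↥(E Q))) (t : T) : autP e (t : G) = MulAut.conj (e t) := by
  ext x
  obtain ⟨s, rfl⟩ := e.surjective x
  rw [autP_apply, MulAut.conj_apply]
  have h1 : MulAut.conjNormal (t : G) s = t * s * t⁻¹ := by
    apply Subtype.ext
    rw [MulAut.conjNormal_apply]
    rfl
  rw [h1, map_mul, map_mul, map_inv]

/-- every element of `G` induces an automorphism coming from a semisimilitude -/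
def Ind (e : T ≃* (↥(E Q) ⧸ Subgroup.center ↥(E Q))) : Prop := ∀ g : G, ∃ M : Gam Q, Psi Q M = autP e g

theorem ind_of_surjective (e : T ≃* (↥(E Q) ⧸ Subgroup.center ↥(E Q))) (h : Function.Surjective (Psi Q)) : Ind e :=
  fun _ => h _

variable {e : T ≃* (↥(E Q) ⧸ Subgroup.center ↥(E Q))}

/-- the action of `G` on the subspaces -/
noncomputable def act (h : Ind e) (g : G) (S : Submodule F V) : Submodule F V := img (h g).choose S

theorem act_of (hG : Good Q) (h : Ind e) {g : G} {M : Gam Q} (hM : Psi Q M = autP e g) (S : Submodule F V) :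
    act h g S = img M S :=
  img_eq_of_Psi hG ((h g).choose_spec.trans hM.symm) S

theorem act_mul (hG : Good Q) (h : Ind e) (a b : G) (S : Submodule F V) : act h (a * b) S = act h a (act h b S) := by
  rw [act_of hG h (M := (h a).choose * (h b).choose) (by
    rw [map_mul, (h a).choose_spec, (h b).choose_spec, map_mul]), img_mul]
  rfl

theorem act_one (hG : Good Q) (h : Ind e) (S : Submodule F V) : act h (1 : G) S = S := by
  rw [act_of hG h (M := 1) (by rw [map_one, map_one]), img_one]

theorem act_inv_act (hG : Good Q) (h : Ind e) (g : G) (S : Submodule F V) : act h g⁻¹ (act h g S) = S := by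
  rw [← act_mul hG, inv_mul_cancel, act_one hG]

theorem act_act_inv (hG : Good Q) (h : Ind e) (g : G) (S : Submodule F V) : act h g (act h g⁻¹ S) = S := by
  rw [← act_mul hG, mul_inv_cancel, act_one hG]

theorem act_mono (h : Ind e) (g : G) {S W : Submodule F V} (hSW : S ≤ W) : act h g S ≤ act h g W := img_mono _ hSW

theorem finrank_act [Finite F] [FiniteDimensional F V] (h : Ind e) (g : G) (S : Submodule F V) :
    finrank F (act h g S) = finrank F S := finrank_img _ S

/-- elements of `T` act as the isometries -/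
theorem act_T (hG : Good Q) (h : Ind e) {t : T} {x : ↥(E Q)} (hx : e t = QuotientGroup.mk x) (S : Submodule F V) :
    act h (t : G) S = S.map (x.1 : V →ₗ[F] V) := by
  rw [act_of hG h (M := lg x) (by rw [Psi_lg, autP_T, hx]), img_lg]

theorem act_perp (h : Ind e) (g : G) {v : V} (hv : act h g (F ∙ v) = F ∙ v) {S : Submodule F V} :
    (∀ s ∈ act h g S, polar Q s v = 0) ↔ ∀ s ∈ S, polar Q s v = 0 := by
  obtain ⟨σ, c, hM⟩ := (h g).choose.2
  set M := (h g).choose with hMdef
  have h1 : M.1 v ∈ F ∙ v := by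
    rw [← hv]
    exact ⟨v, Submodule.mem_span_singleton_self v, rfl⟩
  obtain ⟨d, hd⟩ := Submodule.mem_span_singleton.1 h1
  by_cases hv0 : v = 0
  · subst hv0
    constructor
    · intro _ s _; exact polar_zero_right Q s
    · intro _ s _; exact polar_zero_right Q s
  have hd0 : d ≠ 0 := by
    rintro rfl
    rw [zero_smul] at hd
    apply hv0
    have h2 : M.1 0 = M.1 v := by rw [hM.map_zero, hd]
    exact (M.1.injective h2).symm
  have key : ∀ s : V, polar Q (M.1 s) v = 0 ↔ polar Q s v = 0 := by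
    intro s
    have h2 := hM.polar s v
    rw [← hd, polar_smul_right, smul_eq_mul] at h2
    constructor
    · intro h3
      rw [h3, mul_zero] at h2
      have h4 := (mul_eq_zero.1 h2.symm).resolve_left hM.ne
      exact (map_eq_zero σ).1 h4
    · intro h3
      rw [h3, map_zero, mul_zero] at h2
      exact (mul_eq_zero.1 h2).resolve_left hd0
  constructor
  · intro h2 s hs
    exact (key s).1 (h2 _ ⟨s, hs, rfl⟩)
  · rintro h2 _ ⟨s, hs, rfl⟩
    exact (key s).2 (h2 s hs)

/-- some isometry in `E Q` moves `s ≠ 0` to a vector not perpendicular to `v ≠ 0` -/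
theorem exists_not_perp (hG : Good Q) {v s : V} (hv : v ≠ 0) (hs : s ≠ 0) : ∃ g ∈ E Q, polar Q (g s) v ≠ 0 := by
  obtain ⟨x, y, hxy⟩ := hG.exists_hyp
  obtain ⟨a, b, hab, hv'⟩ := exists_hyp_decomp hG.nondeg hxy hv
  obtain ⟨z, w, hzw, haz, haw, hbz, hbw⟩ := hG.exists_hyp2 hab
  have hzb : polar Q z b = 0 := by rw [polar_comm]; exact hbz
  have hwb : polar Q w b = 0 := by rw [polar_comm]; exact hbw
  have hza : polar Q z a = 0 := by rw [polar_comm]; exact haz
  have hwa : polar Q w a = 0 := by rw [polar_comm]; exact haw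
  -- a vector of norm `Q s`
  have h1 : polar Q (z + Q s • w + b) v = 1 := by
    rw [hv', polar_add_left, polar_add_left, polar_add_right, polar_add_right, polar_add_right, polar_smul_left,
      polar_smul_left, polar_smul_right, polar_smul_right, polar_smul_right, hza, hwa, hzb, hwb, hab.pair', hab.polar_right]
    simp
  have h2 : Q (z + Q s • w + b) = Q s := by
    rw [Q_add, Q_add, QuadraticMap.map_smul, hzw.left, hzw.right, hab.right, polar_smul_right, hzw.pair,
      polar_add_left, polar_smul_left, hzb, hwb]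
    simp
  have h3 : z + Q s • w + b ≠ 0 := by
    intro h0
    rw [h0, polar_zero_left] at h1
    exact zero_ne_one h1
  obtain ⟨g, hg, hgs⟩ := hG.trans_norm hs h3 h2.symm
  exact ⟨g, hg, by rw [hgs, h1]; exact one_ne_zero⟩

/-- **a factor fixing a point `⟨v⟩` and a factor fixing a nonzero subspace** `S` whose perp contains a nonzero vector of norm
`Q v` : impossible -/
theorem no_common [Finite G] (hG : Good Q) (h : Ind e) {X Y : Subgroup G} (hf : Fac T X Y) {v : V} (hv0 : v ≠ 0)
    (hX : ∀ x ∈ X, act h x (F ∙ v) = F ∙ v) {S : Submodule F V} (hS : S ≠ ⊥) (hY : ∀ y ∈ Y, act h y S = S) {w : V}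
    (hw0 : w ≠ 0) (hw : Q w = Q v) (hSw : ∀ s ∈ S, polar Q s w = 0) : False := by
  -- images of `S` under `Ω`
  have key : ∀ x : ↥(E Q), (∀ s ∈ S.map (x.1 : V →ₗ[F] V), polar Q s v = 0) ↔ ∀ s ∈ S, polar Q s v = 0 := by
    intro x
    obtain ⟨a, ha, b, hb, hab⟩ := hf.exists_mul ((e.symm (QuotientGroup.mk x) : T) : G)
    have h1 : act h ((e.symm (QuotientGroup.mk x) : T) : G) S = S.map (x.1 : V →ₗ[F] V) :=
      act_T hG h (by rw [e.apply_symm_apply]) S
    rw [← hab, act_mul hG, hY b hb] at h1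
    rw [← h1]
    exact act_perp h a (hX a ha)
  -- some image is perpendicular to `v`
  obtain ⟨g, hg, hgw⟩ := hG.trans_norm hw0 hv0 hw
  have h1 : ∀ s ∈ S, polar Q s v = 0 := by
    rw [← key ⟨g, hg⟩]
    rintro _ ⟨s, hs, rfl⟩
    change polar Q (g s) v = 0
    rw [← hgw, polar_map (E_le_O hg)]
    exact hSw s hs
  -- some image is not
  obtain ⟨s, hs, hs0⟩ := Submodule.exists_mem_ne_zero_of_ne_bot hS
  obtain ⟨g', hg', hne⟩ := exists_not_perp hG hv0 hs0
  exact hne ((key ⟨g', hg'⟩).2 h1 _ ⟨s, hs, rfl⟩)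

/-- `W` is invariant under `X ∩ T` -/
def Inv0 (h : Ind e) (X : Subgroup G) (W : Submodule F V) : Prop := ∀ t : T, (t : G) ∈ X → act h (t : G) W = W

theorem Inv0.act (hG : Good Q) {h : Ind e} {X : Subgroup G} {W : Submodule F V} (hW : Inv0 h X W) {g : G} (hg : g ∈ X) :
    Inv0 h X (act h g W) := by
  intro t ht
  have h1 : (g⁻¹ * (t : G) * g) ∈ T := by
    have := (inferInstance : T.Normal).conj_mem (t : G) t.2 g⁻¹
    rwa [inv_inv] at this
  have h2 : Reg.act h (g⁻¹ * (t : G) * g) W = W := hW ⟨_, h1⟩ (X.mul_mem (X.mul_mem (X.inv_mem hg) ht) hg)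
  have h3 : (t : G) * g = g * (g⁻¹ * (t : G) * g) := by group
  rw [← act_mul hG, h3, act_mul hG, h2]

/-- **a subspace fixed by `X`** from the subspaces invariant under `X ∩ T` -/
theorem exists_fixed [Finite F] [FiniteDimensional F V] (hG : Good Q) (h : Ind e) {X : Subgroup G} {k : ℕ}
    {D : Submodule F V} (hD : ∀ W : Submodule F V, Inv0 h X W → finrank F W < k → W ≤ D)
    (hex : ∃ W : Submodule F V, Inv0 h X W ∧ finrank F W < k ∧ W ≠ ⊥) :
    ∃ S : Submodule F V, S ≠ ⊥ ∧ S ≤ D ∧ ∀ x ∈ X, act h x S = S := by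
  set A : Set (Submodule F V) := {W | Inv0 h X W ∧ finrank F W < k} with hA
  have hle : ∀ x ∈ X, sSup A ≤ act h x (sSup A) := by
    intro x hx
    refine sSup_le fun W hW => ?_
    have h1 : act h x⁻¹ W ∈ A := ⟨hW.1.act hG (X.inv_mem hx), by rw [finrank_act]; exact hW.2⟩
    have h2 := act_mono h x (le_sSup h1)
    rwa [act_act_inv hG] at h2
  refine ⟨sSup A, ?_, sSup_le fun W hW => hD W hW.1 hW.2, fun x hx => le_antisymm ?_ (hle x hx)⟩
  · obtain ⟨W, hW, hd, hne⟩ := hex
    intro h0
    apply hne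
    rw [eq_bot_iff, ← h0]
    exact le_sSup ⟨hW, hd⟩
  · have h1 := act_mono h x (hle x⁻¹ (X.inv_mem hx))
    rwa [act_act_inv hG] at h1

end act

end Cfsg.Agent.H449.Reg
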