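import Cfsg.Agent.H449.Reg.Semi

/-!
# S3691: factors fixing subspaces, general form (helper449)

* `act_perp_iff` : `act g S ⊥ act g P ↔ S ⊥ P`
* `no_common'` : `G = X Y`, `X` fixes `P ≠ 0`, `Y` fixes `S ≠ 0`, some image of `S` under `Ω` is perpendicular to `P`: impossible
* `exists_act_eq` : `X` is transitive on the images of `S` under `Ω`
-/

set_option autoImplicit false

namespace Cfsg.Agent.H449.Reg

open Module QuadraticMap Cfsg.Agent.LieClassical.OrthCore Cfsg.Agent.LieClassical.OrthTrans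
  Cfsg.Agent.ClassicalGeometry.OrthSemi Cfsg.Agent.H454.Reg

universe u

variable {G : Type u} [Group G] {T : Subgroup G} [T.Normal]
variable {F V : Type*} [Field F] [AddCommGroup V] [Module F V] {Q : QuadraticForm F V}
variable {e : T ≃* (↥(E Q) ⧸ Subgroup.center ↥(E Q))}

theorem act_perp_iff (h : Ind e) (g : G) {S P : Submodule F V} :
    (∀ s ∈ act h g S, ∀ p ∈ act h g P, polar Q s p = 0) ↔ ∀ s ∈ S, ∀ p ∈ P, polar Q s p = 0 := by
  obtain ⟨σ, c, hM⟩ := (h g).choose.2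
  set M := (h g).choose with hMdef
  have key : ∀ s p : V, polar Q (M.1 s) (M.1 p) = 0 ↔ polar Q s p = 0 := by
    intro s p
    rw [hM.polar]
    constructor
    · intro h3
      exact (map_eq_zero σ).1 ((mul_eq_zero.1 h3).resolve_left hM.ne)
    · intro h3
      rw [h3, map_zero, mul_zero]
  constructor
  · intro h2 s hs p hp
    exact (key s p).1 (h2 _ ⟨s, hs, rfl⟩ _ ⟨p, hp, rfl⟩)
  · rintro h2 _ ⟨s, hs, rfl⟩ _ ⟨p, hp, rfl⟩
    exact (key s p).2 (h2 s hs p hp)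

/-- `X` is transitive on the images of `S` under `Ω` if `Y` fixes `S` -/
theorem exists_act_eq [Finite G] (hG : Good Q) (h : Ind e) {X Y : Subgroup G} (hf : Fac T X Y) {S : Submodule F V}
    (hY : ∀ y ∈ Y, act h y S = S) {g : V ≃ₗ[F] V} (hg : g ∈ E Q) : ∃ x ∈ X, act h x S = S.map (g : V →ₗ[F] V) := by
  obtain ⟨a, ha, b, hb, hab⟩ := hf.exists_mul ((e.symm (QuotientGroup.mk ⟨g, hg⟩) : T) : G)
  have h1 : act h ((e.symm (QuotientGroup.mk ⟨g, hg⟩) : T) : G) S = S.map (g : V →ₗ[F] V) :=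
    act_T hG h (x := ⟨g, hg⟩) (by rw [e.apply_symm_apply]) S
  rw [← hab, act_mul hG, hY b hb] at h1
  exact ⟨a, ha, h1⟩

/-- **factors fixing subspaces** -/
theorem no_common' [Finite G] (hG : Good Q) (h : Ind e) {X Y : Subgroup G} (hf : Fac T X Y) {P S : Submodule F V}
    (hP : P ≠ ⊥) (hX : ∀ x ∈ X, act h x P = P) (hS : S ≠ ⊥) (hY : ∀ y ∈ Y, act h y S = S)
    (hex : ∃ g ∈ E Q, ∀ s ∈ S, ∀ p ∈ P, polar Q (g s) p = 0) : False := by
  have key : ∀ g ∈ E Q, (∀ s ∈ S.map (g : V →ₗ[F] V), ∀ p ∈ P, polar Q s p = 0) ↔ ∀ s ∈ S, ∀ p ∈ P, polar Q s p = 0 := by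
    intro g hg
    obtain ⟨x, hx, hxS⟩ := exists_act_eq hG h hf hY hg
    rw [← hxS]
    conv_lhs => rw [← hX x hx]
    exact act_perp_iff h x
  obtain ⟨g, hg, hgS⟩ := hex
  have h1 : ∀ s ∈ S, ∀ p ∈ P, polar Q s p = 0 := by
    rw [← key g hg]
    rintro _ ⟨s, hs, rfl⟩ p hp
    exact hgS s hs p hp
  obtain ⟨s, hs, hs0⟩ := Submodule.exists_mem_ne_zero_of_ne_bot hS
  obtain ⟨p, hp, hp0⟩ := Submodule.exists_mem_ne_zero_of_ne_bot hP
  obtain ⟨g', hg', hne⟩ := exists_not_perp hG hp0 hs0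
  exact hne ((key g' hg').2 h1 _ ⟨s, hs, rfl⟩ p hp)

end Cfsg.Agent.H449.Reg
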